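import Cfsg.Agent.H702.E4.Test
import Cfsg.Agent.Characters.DefectZero
import Cfsg.Agent.Blocks.CyclicUpper

/-!
# S4933, `|P| = p ^ 3`: a third moment modulo `p ^ 2` in a group with Sylow `p`-subgroups of order `p` (helper856)

`L` finite, `|L| = p l`, `p ∤ l`, `z ∈ L` of order `p`, `X` the set of the elements of order `p`: the coefficient
`N₃ - 3 D N₂ + 3 D ^ 2` of `z` in `(X̂ - |X|) ^ 3` is divisible by `p ^ 2` (`main`).
-/

set_option autoImplicit false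
set_option linter.unusedSectionVars false

namespace Cfsg.Agent.H856.HT.FiveA

open Cfsg Cfsg.Agent.Characters Cfsg.Agent.Characters.Core Cfsg.Agent.Characters.ClassMul

universe u

variable {L : Type u} [Group L]

section sums

variable [Fintype L] {X : Finset L} (hX : ∀ x ∈ X, ∀ g : L, g * x * g⁻¹ ∈ X)

include hX

theorem sum_conj_finset (g : L) (f : L → ℂ) : ∑ x ∈ X, f (g * x * g⁻¹) = ∑ x ∈ X, f x := by
  refine Finset.sum_nbij' (fun x => g * x * g⁻¹) (fun x => g⁻¹ * x * g) ?_ ?_ ?_ ?_ ?_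
  · exact fun x hx => hX x hx g
  · intro x hx
    have := hX x hx g⁻¹
    simpa using this
  · intro x _
    group
  · intro x _
    group
  · intro x _
    rfl

theorem sum_mul {χ : L → ℂ} (hχ : IsIrrCharacter L χ) (g : L) :
    ∑ x ∈ X, χ (x * g) = (∑ x ∈ X, χ x) * χ g / χ 1 := by
  have hne : (Nat.card L : ℂ) ≠ 0 := by exact_mod_cast Nat.card_pos.ne'
  apply mul_left_cancel₀ hne
  calc (Nat.card L : ℂ) * ∑ x ∈ X, χ (x * g) = ∑ a : L, ∑ x ∈ X, χ (a * x * a⁻¹ * g) := by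
        rw [Finset.sum_congr rfl fun a _ => sum_conj_finset hX a (fun y => χ (y * g)), Finset.sum_const,
          Finset.card_univ, ← Nat.card_eq_fintype_card, nsmul_eq_mul]
    _ = ∑ x ∈ X, (Nat.card L : ℂ) * χ x * χ g / χ 1 := by
        rw [Finset.sum_comm]
        exact Finset.sum_congr rfl fun x _ => Central.sum_char_conj_mul hχ x g
    _ = _ := by
        rw [Finset.sum_mul, Finset.sum_div, Finset.mul_sum]
        exact Finset.sum_congr rfl fun x _ => by ring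

variable [Fintype (IrrCharacter L)]

theorem card_one {z : L} (hz : z ∈ X) :
    (Nat.card L : ℂ) = ∑ χ : IrrCharacter L, (∑ x ∈ X, (χ : L → ℂ) x) * (χ : L → ℂ) z⁻¹ := by
  classical
  have h1 : ∑ x ∈ X, (if x * z⁻¹ = 1 then (1 : ℂ) else 0) = 1 := by
    rw [Finset.sum_eq_single z]
    · simp
    · intro x _ hx
      rw [if_neg]
      rwa [mul_inv_eq_one]
    · intro h
      exact absurd hz h
  have hne : (Nat.card L : ℂ) ≠ 0 := by exact_mod_cast Nat.card_pos.ne'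
  rw [Finset.sum_congr rfl fun x _ => Counting.ite_eq_one (x * z⁻¹), ← Finset.mul_sum, Finset.sum_comm] at h1
  have h2 : ∀ χ : IrrCharacter L, ∑ x ∈ X, (χ : L → ℂ) 1 * (χ : L → ℂ) (x * z⁻¹) =
      (∑ x ∈ X, (χ : L → ℂ) x) * (χ : L → ℂ) z⁻¹ := by
    intro χ
    have h3 : (χ : L → ℂ) 1 ≠ 0 := isIrr_apply_one_ne_zero χ.2
    rw [← Finset.mul_sum, sum_mul hX χ.2]
    field_simp
  rw [Finset.sum_congr rfl fun χ _ => h2 χ] at h1
  field_simp at h1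
  exact h1.symm

theorem card_two (z : L) : (Nat.card L : ℂ) * (Nat.card {q : L × L // q.1 ∈ X ∧ q.2 ∈ X ∧ q.1 * q.2 = z} : ℂ) =
    ∑ χ : IrrCharacter L, (∑ x ∈ X, (χ : L → ℂ) x) ^ 2 / (χ : L → ℂ) 1 * (χ : L → ℂ) z⁻¹ := by
  classical
  have h0 : (Nat.card {q : L × L // q.1 ∈ X ∧ q.2 ∈ X ∧ q.1 * q.2 = z} : ℂ) =
      ∑ y ∈ X, ∑ x ∈ X, (if x * (y * z⁻¹) = 1 then (1 : ℂ) else 0) := by
    rw [Nat.card_eq_fintype_card, Fintype.card_subtype]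
    have h1 : (Finset.univ.filter fun q : L × L => q.1 ∈ X ∧ q.2 ∈ X ∧ q.1 * q.2 = z) =
        (X ×ˢ X).filter fun q => q.1 * (q.2 * z⁻¹) = 1 := by
      ext q
      simp only [Finset.mem_filter, Finset.mem_univ, true_and, Finset.mem_product, ← mul_assoc, mul_inv_eq_one,
        and_assoc]
    rw [h1, ← Finset.sum_boole, Finset.sum_product, Finset.sum_comm]
  have hne : (Nat.card L : ℂ) ≠ 0 := by exact_mod_cast Nat.card_pos.ne'
  rw [h0, Finset.sum_congr rfl fun y _ => Finset.sum_congr rfl fun x _ => Counting.ite_eq_one (x * (y * z⁻¹))]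
  simp only [← Finset.mul_sum]
  rw [← mul_assoc, mul_inv_cancel₀ hne, one_mul]
  have h2 : ∀ (χ : IrrCharacter L) (g : L), ∑ x ∈ X, (χ : L → ℂ) 1 * (χ : L → ℂ) (x * g) =
      (∑ x ∈ X, (χ : L → ℂ) x) * (χ : L → ℂ) g := by
    intro χ g
    have h3 : (χ : L → ℂ) 1 ≠ 0 := isIrr_apply_one_ne_zero χ.2
    rw [← Finset.mul_sum, sum_mul hX χ.2]
    field_simp
  calc ∑ y ∈ X, ∑ x ∈ X, ∑ χ : IrrCharacter L, (χ : L → ℂ) 1 * (χ : L → ℂ) (x * (y * z⁻¹)) =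
      ∑ y ∈ X, ∑ χ : IrrCharacter L, (∑ x ∈ X, (χ : L → ℂ) x) * (χ : L → ℂ) (y * z⁻¹) := by
        refine Finset.sum_congr rfl fun y _ => ?_
        rw [Finset.sum_comm]
        exact Finset.sum_congr rfl fun χ _ => h2 χ _
    _ = _ := by
        rw [Finset.sum_comm]
        refine Finset.sum_congr rfl fun χ _ => ?_
        have h3 : (χ : L → ℂ) 1 ≠ 0 := isIrr_apply_one_ne_zero χ.2
        rw [← Finset.mul_sum, sum_mul hX χ.2]
        ring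

theorem card_three (z : L) : (Nat.card L : ℂ) *
    (Nat.card {q : L × L × L // q.1 ∈ X ∧ q.2.1 ∈ X ∧ q.2.2 ∈ X ∧ q.1 * q.2.1 * q.2.2 = z} : ℂ) =
    ∑ χ : IrrCharacter L, (∑ x ∈ X, (χ : L → ℂ) x) ^ 3 / (χ : L → ℂ) 1 ^ 2 * (χ : L → ℂ) z⁻¹ := by
  classical
  have h0 : (Nat.card {q : L × L × L // q.1 ∈ X ∧ q.2.1 ∈ X ∧ q.2.2 ∈ X ∧ q.1 * q.2.1 * q.2.2 = z} : ℂ) =
      ∑ x ∈ X, ∑ y ∈ X, ∑ w ∈ X, (if x * (y * (w * z⁻¹)) = 1 then (1 : ℂ) else 0) := by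
    rw [Nat.card_eq_fintype_card, Fintype.card_subtype]
    have h1 : (Finset.univ.filter fun q : L × L × L => q.1 ∈ X ∧ q.2.1 ∈ X ∧ q.2.2 ∈ X ∧ q.1 * q.2.1 * q.2.2 = z) =
        (X ×ˢ (X ×ˢ X)).filter fun q => q.1 * (q.2.1 * (q.2.2 * z⁻¹)) = 1 := by
      ext q
      simp only [Finset.mem_filter, Finset.mem_univ, true_and, Finset.mem_product, ← mul_assoc, mul_inv_eq_one,
        and_assoc]
    rw [h1, ← Finset.sum_boole, Finset.sum_product]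
    refine Finset.sum_congr rfl fun x _ => ?_
    rw [Finset.sum_product]
  have hne : (Nat.card L : ℂ) ≠ 0 := by exact_mod_cast Nat.card_pos.ne'
  rw [h0, Finset.sum_congr rfl fun x _ => Finset.sum_congr rfl fun y _ => Finset.sum_congr rfl fun w _ =>
    Counting.ite_eq_one (x * (y * (w * z⁻¹)))]
  simp only [← Finset.mul_sum]
  rw [← mul_assoc, mul_inv_cancel₀ hne, one_mul]
  have h2 : ∀ (χ : IrrCharacter L) (g : L), ∑ x ∈ X, (χ : L → ℂ) (x * g) =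
      (∑ x ∈ X, (χ : L → ℂ) x) * (χ : L → ℂ) g / (χ : L → ℂ) 1 := fun χ g => sum_mul hX χ.2 g
  have h4 : ∑ x ∈ X, ∑ y ∈ X, ∑ w ∈ X, ∑ χ : IrrCharacter L, (χ : L → ℂ) 1 * (χ : L → ℂ) (x * (y * (w * z⁻¹))) =
      ∑ χ : IrrCharacter L, ∑ w ∈ X, ∑ y ∈ X, ∑ x ∈ X, (χ : L → ℂ) 1 * (χ : L → ℂ) (x * (y * (w * z⁻¹))) := by
    calc _ = ∑ x ∈ X, ∑ y ∈ X, ∑ χ : IrrCharacter L, ∑ w ∈ X, (χ : L → ℂ) 1 * (χ : L → ℂ) (x * (y * (w * z⁻¹))) :=
          Finset.sum_congr rfl fun x _ => Finset.sum_congr rfl fun y _ => Finset.sum_comm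
      _ = ∑ x ∈ X, ∑ χ : IrrCharacter L, ∑ y ∈ X, ∑ w ∈ X, (χ : L → ℂ) 1 * (χ : L → ℂ) (x * (y * (w * z⁻¹))) :=
          Finset.sum_congr rfl fun x _ => Finset.sum_comm
      _ = ∑ χ : IrrCharacter L, ∑ x ∈ X, ∑ y ∈ X, ∑ w ∈ X, (χ : L → ℂ) 1 * (χ : L → ℂ) (x * (y * (w * z⁻¹))) :=
          Finset.sum_comm
      _ = _ := by
          refine Finset.sum_congr rfl fun χ _ => ?_
          calc _ = ∑ x ∈ X, ∑ w ∈ X, ∑ y ∈ X, (χ : L → ℂ) 1 * (χ : L → ℂ) (x * (y * (w * z⁻¹))) :=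
                Finset.sum_congr rfl fun x _ => Finset.sum_comm
            _ = ∑ w ∈ X, ∑ x ∈ X, ∑ y ∈ X, (χ : L → ℂ) 1 * (χ : L → ℂ) (x * (y * (w * z⁻¹))) := Finset.sum_comm
            _ = _ := Finset.sum_congr rfl fun w _ => Finset.sum_comm
  rw [h4]
  refine Finset.sum_congr rfl fun χ _ => ?_
  have h3 : (χ : L → ℂ) 1 ≠ 0 := isIrr_apply_one_ne_zero χ.2
  have h5 : ∀ g : L, ∑ x ∈ X, (χ : L → ℂ) 1 * (χ : L → ℂ) (x * g) = (∑ x ∈ X, (χ : L → ℂ) x) * (χ : L → ℂ) g := by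
    intro g
    rw [← Finset.mul_sum, h2]
    field_simp
  calc ∑ w ∈ X, ∑ y ∈ X, ∑ x ∈ X, (χ : L → ℂ) 1 * (χ : L → ℂ) (x * (y * (w * z⁻¹))) =
      ∑ w ∈ X, ∑ y ∈ X, (∑ x ∈ X, (χ : L → ℂ) x) * (χ : L → ℂ) (y * (w * z⁻¹)) :=
        Finset.sum_congr rfl fun w _ => Finset.sum_congr rfl fun y _ => h5 _
    _ = ∑ w ∈ X, (∑ x ∈ X, (χ : L → ℂ) x) * ((∑ x ∈ X, (χ : L → ℂ) x) * (χ : L → ℂ) (w * z⁻¹) / (χ : L → ℂ) 1) :=
        Finset.sum_congr rfl fun w _ => by rw [← Finset.mul_sum, h2]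
    _ = _ := by
        rw [← Finset.mul_sum, ← Finset.sum_div, ← Finset.mul_sum, h2]
        ring

/-- the coefficient of `z` in `(X̂ - |X|) ^ 3` -/
theorem coeff {z : L} (hz : z ∈ X) (hz1 : z ≠ 1) {D N2 N3 : ℕ} (hD : X.card = D)
    (hN2 : Nat.card {q : L × L // q.1 ∈ X ∧ q.2 ∈ X ∧ q.1 * q.2 = z} = N2)
    (hN3 : Nat.card {q : L × L × L // q.1 ∈ X ∧ q.2.1 ∈ X ∧ q.2.2 ∈ X ∧ q.1 * q.2.1 * q.2.2 = z} = N3) :
    (Nat.card L : ℂ) * (N3 - 3 * D * N2 + 3 * D ^ 2) = ∑ χ : IrrCharacter L,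
      ((∑ x ∈ X, (χ : L → ℂ) x) - D * (χ : L → ℂ) 1) ^ 3 / (χ : L → ℂ) 1 ^ 2 * (χ : L → ℂ) z⁻¹ := by
  have h0 : ∑ χ : IrrCharacter L, (χ : L → ℂ) 1 * (χ : L → ℂ) z⁻¹ = 0 := by
    classical
    rw [Counting.sum_irr_one_mul, if_neg]
    rwa [inv_eq_one]
  have h1 := card_one hX hz
  have h2 := card_two hX z
  have h3 := card_three hX z
  rw [hN2] at h2
  rw [hN3] at h3
  have h4 : (Nat.card L : ℂ) * (N3 - 3 * D * N2 + 3 * D ^ 2) = (Nat.card L : ℂ) * N3 - 3 * D * ((Nat.card L : ℂ) * N2) +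
      3 * D ^ 2 * (Nat.card L : ℂ) - D ^ 3 * 0 := by ring
  rw [h4, h2, h3, ← h0]
  conv_lhs => rw [h1]
  rw [Finset.mul_sum, Finset.mul_sum, Finset.mul_sum, ← Finset.sum_sub_distrib, ← Finset.sum_add_distrib,
    ← Finset.sum_sub_distrib]
  refine Finset.sum_congr rfl fun χ _ => ?_
  have h5 : (χ : L → ℂ) 1 ≠ 0 := isIrr_apply_one_ne_zero χ.2
  field_simp
  ring

end sums

/-! ### the congruence modulo `p` -/

section congr

theorem sum_range_pow [Finite L] {p : ℕ} (hp : p.Prime) {x : L} (hx : orderOf x = p) {χ : L → ℂ}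
    (hχ : IsCharacter L χ) : ∃ m : ℕ, ∑ k ∈ Finset.range p, χ (x ^ k) = (p : ℂ) * m := by
  classical
  have _ := Fintype.ofFinite L
  obtain ⟨m, hm⟩ := H702.E4.sum_eq_card (isCharacter_comp (Subgroup.zpowers x).subtype hχ)
  refine ⟨m, ?_⟩
  rw [Nat.card_zpowers, hx] at hm
  rw [← hm]
  have hfin : IsOfFinOrder x := isOfFinOrder_of_finite x
  rw [← Fin.sum_univ_eq_sum_range (fun k => χ (x ^ k)) p, ← hx]
  refine Fintype.sum_equiv (finEquivZPowers hfin) _ _ fun k => ?_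
  show χ (x ^ (k : ℕ)) = χ ((finEquivZPowers hfin k : L))
  rw [finEquivZPowers_apply]

theorem exists_b [Finite L] {p : ℕ} (hp : p.Prime) {X : Finset L} (hXo : ∀ x ∈ X, orderOf x = p)
    (hXp : ∀ x ∈ X, ∀ k : ℕ, ¬ p ∣ k → x ^ k ∈ X) {χ : L → ℂ} (hχ : IsCharacter L χ) {d : ℕ} (hd : χ 1 = d) :
    ∃ b : ℤ, ((p : ℂ) - 1) * ((∑ x ∈ X, χ x) - (X.card : ℂ) * χ 1) = (p : ℂ) * b := by
  classical
  have h1 : ∀ x : X, ∃ m : ℕ, ∑ k ∈ Finset.range p, χ ((x : L) ^ k) = (p : ℂ) * m := fun x =>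
    sum_range_pow hp (hXo x x.2) hχ
  choose m hm using h1
  have h2 : ∑ x ∈ X, ∑ k ∈ Finset.range p, χ (x ^ k) = (p : ℂ) * (∑ x : X, m x : ℕ) := by
    rw [← Finset.sum_coe_sort X (fun x => ∑ k ∈ Finset.range p, χ (x ^ k)), Finset.sum_congr rfl fun x _ => hm x,
      ← Finset.mul_sum]
    push_cast
    rfl
  obtain ⟨q, rfl⟩ : ∃ q, p = q + 1 := ⟨p - 1, by have := hp.pos; omega⟩
  rw [Finset.sum_comm, Finset.sum_range_succ'] at h2
  have h3 : ∀ k ∈ Finset.range q, ∑ x ∈ X, χ (x ^ (k + 1)) = ∑ x ∈ X, χ x := by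
    intro k hk
    have hk' : ¬ (q + 1) ∣ k + 1 := by
      intro h
      have h4 := Nat.le_of_dvd (by omega) h
      have := Finset.mem_range.1 hk
      omega
    have hinj : Set.InjOn (fun x : L => x ^ (k + 1)) X := by
      intro x hx y hy hxy
      have hcop : (k + 1).Coprime (q + 1) := ((Nat.Prime.coprime_iff_not_dvd hp).2 hk').symm
      have e : x ^ (k + 1) = y ^ (k + 1) := hxy
      obtain ⟨j, -, hj⟩ := Nat.exists_mul_mod_eq_one_of_coprime hcop hp.one_lt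
      have ex : ∀ u ∈ X, u ^ ((k + 1) * j) = u := by
        intro u hu
        rw [← pow_mod_orderOf, hXo u hu, hj, pow_one]
      rw [← ex x hx, ← ex y hy, pow_mul, pow_mul, e]
    have himg : X.image (fun x : L => x ^ (k + 1)) = X := by
      refine Finset.eq_of_subset_of_card_le ?_ ?_
      · intro y hy
        obtain ⟨x, hx, rfl⟩ := Finset.mem_image.1 hy
        exact hXp x hx _ hk'
      · rw [Finset.card_image_of_injOn hinj]
    conv_rhs => rw [← himg]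
    rw [Finset.sum_image hinj]
  rw [Finset.sum_congr rfl h3, Finset.sum_const, Finset.card_range, nsmul_eq_mul] at h2
  simp only [pow_zero, Finset.sum_const, nsmul_eq_mul] at h2
  refine ⟨(∑ x : X, m x : ℕ) - X.card * d, ?_⟩
  rw [hd] at h2 ⊢
  push_cast at h2 ⊢
  linear_combination h2

end congr

/-! ### the theorem -/

theorem main [Finite L] {p l : ℕ} (hp : p.Prime) (hL : Nat.card L = p * l) (hl : ¬ p ∣ l) {z : L} (hz : orderOf z = p)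
    {D N2 N3 : ℕ} (hD : Nat.card {x : L // orderOf x = p} = D)
    (h2 : Nat.card {q : L × L // orderOf q.1 = p ∧ orderOf q.2 = p ∧ q.1 * q.2 = z} = N2)
    (h3 : Nat.card {q : L × L × L // orderOf q.1 = p ∧ orderOf q.2.1 = p ∧ orderOf q.2.2 = p ∧
      q.1 * q.2.1 * q.2.2 = z} = N3) : (p : ℤ) ^ 2 ∣ N3 - 3 * D * N2 + 3 * D ^ 2 := by
  classical
  have _ := Fintype.ofFinite L
  have : Finite (IrrCharacter L) := finite_irr
  have _ := Fintype.ofFinite (IrrCharacter L)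
  obtain ⟨X, hXdef⟩ : ∃ X : Finset L, X = Finset.univ.filter fun x => orderOf x = p := ⟨_, rfl⟩
  have hmem : ∀ x : L, x ∈ X ↔ orderOf x = p := fun x => by rw [hXdef]; simp
  have hX : ∀ x ∈ X, ∀ g : L, g * x * g⁻¹ ∈ X := by
    intro x hx g
    rw [hmem] at hx ⊢
    rw [← hx]
    exact orderOf_injective (MulAut.conj g).toMonoidHom (MulAut.conj g).injective x
  have hXp : ∀ x ∈ X, ∀ k : ℕ, ¬ p ∣ k → x ^ k ∈ X := by
    intro x hx k hk
    rw [hmem] at hx ⊢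
    rw [orderOf_pow, hx, (((Nat.Prime.coprime_iff_not_dvd hp).2 hk) : p.gcd k = 1), Nat.div_one]
  have hcard : X.card = D := by
    rw [← hD, Nat.card_eq_fintype_card, Fintype.card_subtype, hXdef]
  have h2' : Nat.card {q : L × L // q.1 ∈ X ∧ q.2 ∈ X ∧ q.1 * q.2 = z} = N2 := by
    rw [← h2]
    simp only [hmem]
  have h3' : Nat.card {q : L × L × L // q.1 ∈ X ∧ q.2.1 ∈ X ∧ q.2.2 ∈ X ∧ q.1 * q.2.1 * q.2.2 = z} = N3 := by
    rw [← h3]
    simp only [hmem]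
  have hz1 : z ≠ 1 := by
    rintro rfl
    rw [orderOf_one] at hz
    exact hp.one_lt.ne hz
  have hco := coeff hX ((hmem z).2 hz) hz1 hcard h2' h3'
  have hdeg : ∀ χ : IrrCharacter L, (χ : L → ℂ) 1 = (charDegree (χ : L → ℂ) : ℂ) := fun χ =>
    Blocks.Basic.irr_one_eq_charDegree χ.2
  have hb : ∀ χ : IrrCharacter L, ∃ b : ℤ, ((p : ℂ) - 1) * ((∑ x ∈ X, (χ : L → ℂ) x) - (X.card : ℂ) * (χ : L → ℂ) 1) =
      (p : ℂ) * b := fun χ => exists_b hp (fun x hx => (hmem x).1 hx) hXp (isIrr_isCharacter χ.2) (hdeg χ)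
  choose b hb using hb
  -- the terms
  have hterm : ∀ χ : IrrCharacter L, ∃ q : ℕ, ((p : ℂ) - 1) ^ 3 * (l : ℂ) ^ 2 *
      (((∑ x ∈ X, (χ : L → ℂ) x) - D * (χ : L → ℂ) 1) ^ 3 / (χ : L → ℂ) 1 ^ 2 * (χ : L → ℂ) z⁻¹) =
      (p : ℂ) ^ 3 * ((b χ : ℂ) ^ 3 * (q : ℂ) ^ 2 * (χ : L → ℂ) z⁻¹) := by
    intro χ
    by_cases hpd : p ∣ charDegree (χ : L → ℂ)
    · refine ⟨0, ?_⟩
      have h0 : (χ : L → ℂ) z⁻¹ = 0 := by
        obtain ⟨n, ρ, hρ, hχ⟩ := χ.2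
        rw [← hχ]
        refine DefectZero.character_inv_eq_zero ρ hρ p 1 hp (by rw [pow_one, hL]; exact dvd_mul_right _ _) ?_ ?_ z
          (by rw [hz])
        · rw [hL, pow_succ, pow_one]
          exact fun h => hl ((Nat.mul_dvd_mul_iff_left hp.pos).1 h)
        · have h5 := hdeg χ
          rw [← hχ, Representation.char_one] at h5
          have h6 : Module.finrank ℂ (Fin n → ℂ) = charDegree (χ : L → ℂ) := by
            rw [← hχ]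
            exact_mod_cast h5
          rw [h6, pow_one]
          exact hpd
      rw [h0]
      ring
    · have h5 : charDegree (χ : L → ℂ) ∣ l := by
        have h6 := Blocks.CyclicUpper.charDegree_dvd χ.2
        rw [hL] at h6
        exact (Nat.Coprime.dvd_of_dvd_mul_left (((Nat.Prime.coprime_iff_not_dvd hp).2 hpd).symm) h6)
      obtain ⟨q, hq⟩ := h5
      refine ⟨q, ?_⟩
      have h7 : (χ : L → ℂ) 1 ≠ 0 := isIrr_apply_one_ne_zero χ.2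
      have h8 : (l : ℂ) = (χ : L → ℂ) 1 * q := by
        rw [hdeg, hq]
        push_cast
        ring
      have h9 := hb χ
      rw [hcard] at h9
      have h10 : ((p : ℂ) - 1) ^ 3 * (l : ℂ) ^ 2 *
          (((∑ x ∈ X, (χ : L → ℂ) x) - D * (χ : L → ℂ) 1) ^ 3 / (χ : L → ℂ) 1 ^ 2 * (χ : L → ℂ) z⁻¹) =
          (((p : ℂ) - 1) * ((∑ x ∈ X, (χ : L → ℂ) x) - D * (χ : L → ℂ) 1)) ^ 3 * (q : ℂ) ^ 2 * (χ : L → ℂ) z⁻¹ := by
        rw [h8]
        field_simp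
      rw [h10, h9]
      ring
  choose q hq using hterm
  have hsum : ((p : ℂ) - 1) ^ 3 * (l : ℂ) ^ 2 * ((Nat.card L : ℂ) * (N3 - 3 * D * N2 + 3 * D ^ 2)) =
      (p : ℂ) ^ 3 * ∑ χ : IrrCharacter L, (b χ : ℂ) ^ 3 * (q χ : ℂ) ^ 2 * (χ : L → ℂ) z⁻¹ := by
    rw [hco, Finset.mul_sum, Finset.mul_sum]
    exact Finset.sum_congr rfl fun χ _ => hq χ
  have hint : IsIntegral ℤ (∑ χ : IrrCharacter L, (b χ : ℂ) ^ 3 * (q χ : ℂ) ^ 2 * (χ : L → ℂ) z⁻¹) := by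
    refine IsIntegral.sum _ fun χ _ => ?_
    refine IsIntegral.mul (IsIntegral.mul (IsIntegral.pow ?_ 3) (IsIntegral.pow ?_ 2))
      (GaloisBasic.isIntegral_apply (isIrr_isCharacter χ.2) _)
    · exact isIntegral_algebraMap (R := ℤ) (A := ℂ) (x := b χ)
    · have := isIntegral_algebraMap (R := ℤ) (A := ℂ) (x := (q χ : ℤ))
      simpa using this
  have hp0 : (p : ℂ) ≠ 0 := by exact_mod_cast hp.ne_zero
  have hval : ∑ χ : IrrCharacter L, (b χ : ℂ) ^ 3 * (q χ : ℂ) ^ 2 * (χ : L → ℂ) z⁻¹ =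
      ((((p : ℚ) - 1) ^ 3 * (l : ℚ) ^ 3 * (N3 - 3 * D * N2 + 3 * D ^ 2) / (p : ℚ) ^ 2 : ℚ) : ℂ) := by
    rw [hL] at hsum
    push_cast at hsum ⊢
    rw [eq_div_iff (pow_ne_zero 2 hp0)]
    have h5 : (p : ℂ) ≠ 0 := hp0
    apply mul_left_cancel₀ h5
    linear_combination -hsum
  obtain ⟨k, hk⟩ := GaloisBasic.exists_int_of_isIntegral hint ⟨_, hval⟩
  rw [hval] at hk
  have hk' : ((p : ℚ) - 1) ^ 3 * (l : ℚ) ^ 3 * (N3 - 3 * D * N2 + 3 * D ^ 2) / (p : ℚ) ^ 2 = k := by exact_mod_cast hk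
  have hpq : (p : ℚ) ≠ 0 := by exact_mod_cast hp.ne_zero
  rw [div_eq_iff (pow_ne_zero 2 hpq)] at hk'
  have hk2 : ((p : ℤ) - 1) ^ 3 * (l : ℤ) ^ 3 * (N3 - 3 * D * N2 + 3 * D ^ 2) = k * (p : ℤ) ^ 2 := by exact_mod_cast hk'
  have hdvd : (p : ℤ) ^ 2 ∣ ((p : ℤ) - 1) ^ 3 * (l : ℤ) ^ 3 * (N3 - 3 * D * N2 + 3 * D ^ 2) := ⟨k, by rw [hk2]; ring⟩
  have hc1 : IsCoprime ((p : ℤ) ^ 2) (((p : ℤ) - 1) ^ 3) := by
    apply IsCoprime.pow
    exact ⟨1, -1, by ring⟩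
  have hc2 : IsCoprime ((p : ℤ) ^ 2) ((l : ℤ) ^ 3) := by
    apply IsCoprime.pow
    exact Nat.isCoprime_iff_coprime.2 ((Nat.Prime.coprime_iff_not_dvd hp).2 hl)
  exact (hc1.mul_right hc2).dvd_of_dvd_mul_left hdvd

end Cfsg.Agent.H856.HT.FiveA
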