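import Mathlib

/-!
# S4933, `|P| = p ^ 3`: counting tuples by Burnside's lemma (helper856)
-/

set_option autoImplicit false
set_option linter.unusedSectionVars false

namespace Cfsg.Agent.H856.HT.FiveB

universe u

theorem dvd_sum_of_coset {R : Type u} [Group R] [Fintype R] (Z : Subgroup R) (f : R → ℤ) (n : ℤ)
    (hf : ∀ b, ∀ s ∈ Z, f (b * s) = f b) (hn : ∀ b, n ∣ f b) : (Nat.card Z : ℤ) * n ∣ ∑ b, f b := by
  classical
  have _ := Fintype.ofFinite (R ⧸ Z)
  rw [← Finset.sum_fiberwise (Finset.univ : Finset R) (fun b : R => (b : R ⧸ Z)) f]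
  refine Finset.dvd_sum fun q _ => ?_
  have h1 : ∀ b ∈ Finset.univ.filter (fun b : R => (b : R ⧸ Z) = q), f b = f q.out := by
    intro b hb
    have hb' : (b : R ⧸ Z) = q := (Finset.mem_filter.1 hb).2
    have h2 : (q.out : R ⧸ Z) = (b : R ⧸ Z) := by
      rw [hb']
      exact QuotientGroup.out_eq' q
    have h3 : b⁻¹ * q.out ∈ Z := QuotientGroup.eq.1 h2.symm
    have h4 := hf b _ h3
    rwa [mul_inv_cancel_left, eq_comm] at h4
  rw [Finset.sum_congr rfl h1, Finset.sum_const, nsmul_eq_mul]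
  have h5 : (Finset.univ.filter (fun b : R => (b : R ⧸ Z) = q)).card = Nat.card Z := by
    rw [← Fintype.card_subtype, ← Nat.card_eq_fintype_card]
    refine Nat.card_congr
      { toFun := fun b => ⟨q.out⁻¹ * b.1, ?_⟩
        invFun := fun s => ⟨q.out * s.1, ?_⟩
        left_inv := fun b => Subtype.ext (by simp)
        right_inv := fun s => Subtype.ext (by simp) }
    · have h2 : (q.out : R ⧸ Z) = (b.1 : R ⧸ Z) := by
        rw [b.2]
        exact QuotientGroup.out_eq' q
      exact QuotientGroup.eq.1 h2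
    · rw [← QuotientGroup.out_eq' q]
      refine (QuotientGroup.eq.2 ?_).symm
      rw [QuotientGroup.out_eq' q, inv_mul_cancel_left]
      exact s.2
  rw [h5]
  exact mul_dvd_mul_left _ (hn _)

section tuples

variable {G : Type u} [Group G]

/-- commuting triples -/
def com (q : G × G × G) (b : G) : Prop := q.1 * b = b * q.1 ∧ q.2.1 * b = b * q.2.1 ∧ q.2.2 * b = b * q.2.2

/-- conjugation of triples -/
def cnj (g : G) (q : G × G × G) : G × G × G := (g * q.1 * g⁻¹, g * q.2.1 * g⁻¹, g * q.2.2 * g⁻¹)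

/-- the triples of `T` which commute with `b` -/
noncomputable def cnt (T : Set (G × G × G)) (b : G) : ℕ := Nat.card {q : G × G × G // q ∈ T ∧ com q b}

theorem cnj_one (q : G × G × G) : cnj 1 q = q := by simp [cnj]

theorem cnj_mul (g h : G) (q : G × G × G) : cnj (g * h) q = cnj g (cnj h q) := by simp [cnj, mul_assoc]

theorem cnj_eq_iff (g : G) (q : G × G × G) : cnj g q = q ↔ com q g := by
  unfold cnj com
  rw [Prod.ext_iff, Prod.ext_iff]
  simp only [mul_inv_eq_iff_eq_mul]
  constructor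
  · rintro ⟨h1, h2, h3⟩
    exact ⟨h1.symm, h2.symm, h3.symm⟩
  · rintro ⟨h1, h2, h3⟩
    exact ⟨h1.symm, h2.symm, h3.symm⟩

/-- **Burnside** -/
theorem burn [Finite G] (U : Subgroup G) [Fintype U] (T : Set (G × G × G)) (hT : ∀ u ∈ U, ∀ q ∈ T, cnj u q ∈ T) :
    Nat.card U ∣ ∑ b : U, cnt T (b : G) := by
  classical
  let act : MulAction U T :=
    { smul := fun u q => ⟨cnj (u : G) q.1, hT u u.2 q.1 q.2⟩
      one_smul := fun q => Subtype.ext (cnj_one q.1)
      mul_smul := fun u v q => Subtype.ext (cnj_mul (u : G) v q.1) }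
  have _ : Fintype T := Fintype.ofFinite _
  have _ : ∀ u : U, Fintype (MulAction.fixedBy T u) := fun u => Fintype.ofFinite _
  have _ : Fintype (Quotient (MulAction.orbitRel U T)) := Fintype.ofFinite _
  have h := MulAction.sum_card_fixedBy_eq_card_orbits_mul_card_group U T
  have h1 : ∀ b : U, cnt T (b : G) = Fintype.card (MulAction.fixedBy T b) := by
    intro b
    unfold cnt
    rw [← Nat.card_eq_fintype_card]
    refine Nat.card_congr
      { toFun := fun q => ⟨⟨q.1, q.2.1⟩, ?_⟩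
        invFun := fun q => ⟨q.1.1, q.1.2, ?_⟩
        left_inv := fun q => rfl
        right_inv := fun q => rfl }
    · exact Subtype.ext ((cnj_eq_iff _ _).2 q.2.2)
    · have h2 : b • q.1 = q.1 := q.2
      exact (cnj_eq_iff _ _).1 (congrArg Subtype.val h2)
  rw [Finset.sum_congr rfl fun b _ => h1 b, h, Nat.card_eq_fintype_card]
  exact dvd_mul_left _ _

theorem cnt_conj (T : Set (G × G × G)) (s b : G) (hT : ∀ q, cnj s q ∈ T ↔ q ∈ T) : cnt T (s * b * s⁻¹) = cnt T b := by
  unfold cnt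
  symm
  refine Nat.card_congr
    { toFun := fun q => ⟨cnj s q.1, (hT _).2 q.2.1, ?_⟩
      invFun := fun q => ⟨cnj s⁻¹ q.1, ?_, ?_⟩
      left_inv := fun q => Subtype.ext ?_
      right_inv := fun q => Subtype.ext ?_ }
  · have h := (cnj_eq_iff _ _).2 q.2.2
    rw [← cnj_eq_iff, ← cnj_mul, inv_mul_cancel_right, cnj_mul, h]
  · rw [← hT, ← cnj_mul, mul_inv_cancel, cnj_one]
    exact q.2.1
  · have h := (cnj_eq_iff _ _).2 q.2.2
    rw [← cnj_eq_iff]
    conv_rhs => rw [← h]
    rw [← cnj_mul, ← cnj_mul]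
    congr 1
    group
  · show cnj s⁻¹ (cnj s q.1) = q.1
    rw [← cnj_mul, inv_mul_cancel, cnj_one]
  · show cnj s (cnj s⁻¹ q.1) = q.1
    rw [← cnj_mul, mul_inv_cancel, cnj_one]

end tuples

end Cfsg.Agent.H856.HT.FiveB
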