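import Cfsg.Agent.H702.E4.Test
import Cfsg.Agent.H856.HT.FiveA
import Cfsg.Agent.H856.HT.FiveB

/-!
# S4933, `|P| = 5 ^ 3`: the sets of tuples (helper856)

`z` of order 5, `R` a nonabelian Sylow 5-subgroup of order 125 with `z` in its centre, the noncentral elements of `R`
are not conjugate to `z`.
-/

set_option autoImplicit false
set_option linter.unusedSectionVars false

namespace Cfsg.Agent.H856.HT.FiveC

open Cfsg Subgroup Cfsg.Agent.H856.HT.FiveB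
open Cfsg.Agent.H702.E4 (Loc)

universe u

variable {G : Type u} [Group G]

/-- a `p`-element is conjugate into a subgroup of order the full power of `p` -/
theorem conj_into [Finite G] {p n : ℕ} [hp : Fact p.Prime] (P : Subgroup G) (hP : Nat.card P = p ^ n)
    (hn : ¬ p ^ (n + 1) ∣ Nat.card G) (Q : Subgroup G) (hQ : IsPGroup p Q) :
    ∃ g : G, ∀ x ∈ Q, g * x * g⁻¹ ∈ P := by
  have h1 : IsPGroup p P := IsPGroup.of_card hP
  obtain ⟨S, hS⟩ := h1.exists_le_sylow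
  obtain ⟨T, hT⟩ := hQ.exists_le_sylow
  have h2 : (S : Subgroup G) = P := by
    refine (Subgroup.eq_of_le_of_card_ge hS ?_).symm
    obtain ⟨k, hk⟩ := (IsPGroup.iff_card.1 S.isPGroup')
    rw [hk, hP]
    refine Nat.pow_le_pow_right hp.out.pos ?_
    by_contra hcon
    push Not at hcon
    refine hn ((pow_dvd_pow p hcon).trans ?_)
    rw [← hk]
    exact Subgroup.card_subgroup_dvd_card _
  obtain ⟨g, hg⟩ := MulAction.exists_smul_eq G T S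
  refine ⟨g, fun x hx => ?_⟩
  rw [← h2, ← hg]
  rw [Sylow.coe_subgroup_smul]
  exact ⟨x, hT hx, rfl⟩

section

variable [Finite G] {p : ℕ} [hp : Fact p.Prime] {z : G} {R : Subgroup G} (H : Loc p z R)
  (hF : ∀ r ∈ R, IsConj z r → r ∈ zpowers z)

include H hF

/-- the conjugates of `z` which commute with `z` -/
theorem mem_of_comm {x : G} (hx : IsConj z x) (hxz : x * z = z * x) : x ∈ zpowers z := by
  have hxC : x ∈ centralizer ({z} : Set G) := mem_centralizer_singleton_iff.2 hxz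
  have hox : orderOf x = p := by
    obtain ⟨g, rfl⟩ := isConj_iff.1 hx
    rw [← H.oz]
    exact orderOf_injective (MulAut.conj g).toMonoidHom (MulAut.conj g).injective z
  obtain ⟨g, hg⟩ := conj_into (G := centralizer ({z} : Set G)) (p := p) (n := 3)
    (R.subgroupOf (centralizer ({z} : Set G))) (by
      rw [← H.cR]
      exact Nat.card_congr (Subgroup.subgroupOfEquivOfLe H.Rz).toEquiv)
    (fun h => H.h4 (h.trans (Subgroup.card_subgroup_dvd_card _))) (zpowers ⟨x, hxC⟩) (by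
      refine IsPGroup.of_card (n := 1) ?_
      rw [Nat.card_zpowers, Subgroup.orderOf_mk, hox, pow_one])
  have h1 := hg ⟨x, hxC⟩ (mem_zpowers _)
  have h2 : (g : G) * x * (g : G)⁻¹ ∈ R := by
    have := Subgroup.mem_subgroupOf.1 h1
    simpa using this
  have h3 := hF _ h2 (hx.trans (isConj_iff.2 ⟨g, rfl⟩))
  obtain ⟨k, hk⟩ := mem_zpowers_iff.1 h3
  have hgz : (g : G) * z = z * g := mem_centralizer_singleton_iff.1 g.2
  refine mem_zpowers_iff.2 ⟨k, ?_⟩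
  have h5 : Commute (z ^ k) (g : G) := (show Commute z (g : G) from hgz.symm).zpow_left k
  have h6 : x = (g : G)⁻¹ * (z ^ k) * g := by rw [hk]; group
  rw [h6, mul_assoc, h5.eq, inv_mul_cancel_left]

end

/-! ### the three sets -/

/-- the conjugates of `z` -/
def T1 (z : G) : Set (G × G × G) := {q | IsConj z q.1 ∧ q.2.1 = 1 ∧ q.2.2 = 1}

/-- the pairs with product `z` -/
def T2 (z : G) : Set (G × G × G) := {q | IsConj z q.1 ∧ IsConj z q.2.1 ∧ q.2.2 = 1 ∧ q.1 * q.2.1 = z}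

/-- the triples with product `z` -/
def T3 (z : G) : Set (G × G × G) := {q | IsConj z q.1 ∧ IsConj z q.2.1 ∧ IsConj z q.2.2 ∧ q.1 * q.2.1 * q.2.2 = z}

theorem isConj_conj {z a g : G} (h : IsConj z a) : IsConj z (g * a * g⁻¹) := h.trans (isConj_iff.2 ⟨g, rfl⟩)

theorem isConj_conj_iff {z a g : G} : IsConj z (g * a * g⁻¹) ↔ IsConj z a :=
  ⟨fun h => h.trans (isConj_iff.2 ⟨g, rfl⟩ : IsConj a (g * a * g⁻¹)).symm, isConj_conj⟩

theorem conj_eq_one {a g : G} : g * a * g⁻¹ = 1 ↔ a = 1 := by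
  rw [mul_inv_eq_one, mul_eq_left]

theorem cnj_T1 (z g : G) (q : G × G × G) : cnj g q ∈ T1 z ↔ q ∈ T1 z := by
  show (IsConj z (g * q.1 * g⁻¹) ∧ g * q.2.1 * g⁻¹ = 1 ∧ g * q.2.2 * g⁻¹ = 1) ↔ (IsConj z q.1 ∧ q.2.1 = 1 ∧ q.2.2 = 1)
  rw [isConj_conj_iff, conj_eq_one, conj_eq_one]

theorem cnj_T2 {z g : G} (hg : g * z = z * g) (q : G × G × G) : cnj g q ∈ T2 z ↔ q ∈ T2 z := by
  show (IsConj z (g * q.1 * g⁻¹) ∧ IsConj z (g * q.2.1 * g⁻¹) ∧ g * q.2.2 * g⁻¹ = 1 ∧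
    (g * q.1 * g⁻¹) * (g * q.2.1 * g⁻¹) = z) ↔ (IsConj z q.1 ∧ IsConj z q.2.1 ∧ q.2.2 = 1 ∧ q.1 * q.2.1 = z)
  rw [isConj_conj_iff, isConj_conj_iff, conj_eq_one]
  have h : (g * q.1 * g⁻¹) * (g * q.2.1 * g⁻¹) = g * (q.1 * q.2.1) * g⁻¹ := by group
  rw [h, mul_inv_eq_iff_eq_mul, ← hg, mul_right_inj]

theorem cnj_T3 {z g : G} (hg : g * z = z * g) (q : G × G × G) : cnj g q ∈ T3 z ↔ q ∈ T3 z := by
  show (IsConj z (g * q.1 * g⁻¹) ∧ IsConj z (g * q.2.1 * g⁻¹) ∧ IsConj z (g * q.2.2 * g⁻¹) ∧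
    (g * q.1 * g⁻¹) * (g * q.2.1 * g⁻¹) * (g * q.2.2 * g⁻¹) = z) ↔
    (IsConj z q.1 ∧ IsConj z q.2.1 ∧ IsConj z q.2.2 ∧ q.1 * q.2.1 * q.2.2 = z)
  rw [isConj_conj_iff, isConj_conj_iff, isConj_conj_iff]
  have h : (g * q.1 * g⁻¹) * (g * q.2.1 * g⁻¹) * (g * q.2.2 * g⁻¹) = g * (q.1 * q.2.1 * q.2.2) * g⁻¹ := by group
  rw [h, mul_inv_eq_iff_eq_mul, ← hg, mul_right_inj]

section five

variable [Finite G] {z : G} {R : Subgroup G} (H : Loc 5 z R) (hF : ∀ r ∈ R, IsConj z r → r ∈ zpowers z)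

include H

theorem rat {i : Fin 5} (hi : i ≠ 0) : IsConj z (z ^ (i : ℕ)) := by
  refine H.rat _ fun h => hi ?_
  apply Fin.ext
  have := i.2
  have h2 := Nat.eq_zero_of_dvd_of_lt h this
  simpa using h2

theorem pow_inj {i j : Fin 5} (h : z ^ (i : ℕ) = z ^ (j : ℕ)) : i = j := by
  have h2 := pow_inj_mod.1 h
  rw [H.oz, Nat.mod_eq_of_lt i.2, Nat.mod_eq_of_lt j.2] at h2
  exact Fin.ext h2

theorem pow_eq {n : ℕ} : z ^ n = z ↔ n % 5 = 1 := by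
  conv_lhs => rw [← pow_one z]
  rw [← pow_mul, one_mul, pow_inj_mod, H.oz]

theorem comm_pow (i : ℕ) (b : G) (hb : b * z = z * b) : z ^ i * b = b * z ^ i :=
  ((show Commute b z from hb).pow_right i).symm.eq

include hF

theorem exists_fin {x : G} (hx : IsConj z x) (hxz : x * z = z * x) : ∃ i : Fin 5, i ≠ 0 ∧ z ^ (i : ℕ) = x := by
  have : Fact (Nat.Prime 5) := ⟨by norm_num⟩
  have h1 := mem_of_comm H hF hx hxz
  obtain ⟨k, hk⟩ := mem_powers_iff_mem_zpowers.2 h1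
  have hk' : z ^ k = x := hk
  have hk2 : z ^ (k % 5) = x := by
    rw [← H.oz, pow_mod_orderOf, hk']
  refine ⟨⟨k % 5, Nat.mod_lt _ (by norm_num)⟩, ?_, hk2⟩
  intro h
  have h2 : k % 5 = 0 := congrArg Fin.val h
  rw [h2, pow_zero] at hk2
  have h3 : z = 1 := by
    rw [← hk2, isConj_one_left] at hx
    exact hx
  have h5 := H.oz
  rw [h3, orderOf_one] at h5
  norm_num at h5

theorem cnt_T1 : cnt (T1 z) z = 4 := by
  have h : Nat.card {i : Fin 5 // i ≠ 0} = 4 := by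
    rw [Nat.card_eq_fintype_card]
    decide
  rw [← h]
  unfold cnt
  symm
  refine Nat.card_congr (Equiv.ofBijective (fun i => ⟨(z ^ (i.1 : ℕ), 1, 1), ⟨rat H i.2, rfl, rfl⟩,
    comm_pow H _ _ rfl, by simp, by simp⟩) ⟨?_, ?_⟩)
  · intro i j hij
    have h1 := congrArg (fun q => q.1.1) hij
    exact Subtype.ext (pow_inj H h1)
  · rintro ⟨⟨x, y, w⟩, ⟨hx, hy, hw⟩, hc, -, -⟩
    obtain ⟨i, hi, hi2⟩ := exists_fin H hF hx hc
    refine ⟨⟨i, hi⟩, Subtype.ext ?_⟩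
    exact Prod.ext hi2 (Prod.ext hy.symm hw.symm)

theorem cnt_T2 : cnt (T2 z) z = 3 := by
  have h : Nat.card {t : Fin 5 × Fin 5 // t.1 ≠ 0 ∧ t.2 ≠ 0 ∧ ((t.1 : ℕ) + t.2) % 5 = 1} = 3 := by
    rw [Nat.card_eq_fintype_card]
    decide
  rw [← h]
  unfold cnt
  symm
  refine Nat.card_congr (Equiv.ofBijective (fun t => ⟨(z ^ (t.1.1 : ℕ), z ^ (t.1.2 : ℕ), 1),
    ⟨rat H t.2.1, rat H t.2.2.1, rfl, ?_⟩, comm_pow H _ _ rfl, comm_pow H _ _ rfl, by simp⟩) ⟨?_, ?_⟩)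
  · show z ^ (t.1.1 : ℕ) * z ^ (t.1.2 : ℕ) = z
    rw [← pow_add, pow_eq H]
    exact t.2.2.2
  · intro i j hij
    have h1 := congrArg (fun q => q.1.1) hij
    have h2 := congrArg (fun q => q.1.2.1) hij
    exact Subtype.ext (Prod.ext (pow_inj H h1) (pow_inj H h2))
  · rintro ⟨⟨x, y, w⟩, ⟨hx, hy, hw, hm⟩, hc, hc2, -⟩
    obtain ⟨i, hi, hi2⟩ := exists_fin H hF hx hc
    obtain ⟨j, hj, hj2⟩ := exists_fin H hF hy hc2
    refine ⟨⟨(i, j), hi, hj, ?_⟩, Subtype.ext ?_⟩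
    · have hm' : x * y = z := hm
      rw [← pow_eq H, pow_add, hi2, hj2]
      exact hm'
    · exact Prod.ext hi2 (Prod.ext hj2 hw.symm)

theorem cnt_T3 : cnt (T3 z) z = 13 := by
  have h : Nat.card {t : Fin 5 × Fin 5 × Fin 5 // t.1 ≠ 0 ∧ t.2.1 ≠ 0 ∧ t.2.2 ≠ 0 ∧
      ((t.1 : ℕ) + t.2.1 + t.2.2) % 5 = 1} = 13 := by
    rw [Nat.card_eq_fintype_card]
    decide +kernel
  rw [← h]
  unfold cnt
  symm
  refine Nat.card_congr (Equiv.ofBijective (fun t => ⟨(z ^ (t.1.1 : ℕ), z ^ (t.1.2.1 : ℕ), z ^ (t.1.2.2 : ℕ)),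
    ⟨rat H t.2.1, rat H t.2.2.1, rat H t.2.2.2.1, ?_⟩, comm_pow H _ _ rfl, comm_pow H _ _ rfl,
    comm_pow H _ _ rfl⟩) ⟨?_, ?_⟩)
  · show z ^ (t.1.1 : ℕ) * z ^ (t.1.2.1 : ℕ) * z ^ (t.1.2.2 : ℕ) = z
    rw [← pow_add, ← pow_add, pow_eq H]
    exact t.2.2.2.2
  · intro i j hij
    have h1 := congrArg (fun q => q.1.1) hij
    have h2 := congrArg (fun q => q.1.2.1) hij
    have h3 := congrArg (fun q => q.1.2.2) hij
    exact Subtype.ext (Prod.ext (pow_inj H h1) (Prod.ext (pow_inj H h2) (pow_inj H h3)))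
  · rintro ⟨⟨x, y, w⟩, ⟨hx, hy, hw, hm⟩, hc, hc2, hc3⟩
    obtain ⟨i, hi, hi2⟩ := exists_fin H hF hx hc
    obtain ⟨j, hj, hj2⟩ := exists_fin H hF hy hc2
    obtain ⟨k, hk, hk2⟩ := exists_fin H hF hw hc3
    refine ⟨⟨(i, j, k), hi, hj, hk, ?_⟩, Subtype.ext ?_⟩
    · have hm' : x * y * w = z := hm
      rw [← pow_eq H, pow_add, pow_add, hi2, hj2, hk2]
      exact hm'
    · exact Prod.ext hi2 (Prod.ext hj2 hk2)

end five

end Cfsg.Agent.H856.HT.FiveC
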