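import Cfsg.Agent.H856.HT.FiveC
import Cfsg.Agent.H597.HT.TransL

/-!
# S4933, `|P| = 5 ^ 3`: the noncentral elements of `R` (helper856)
-/

set_option autoImplicit false
set_option linter.unusedSectionVars false

namespace Cfsg.Agent.H856.HT.FiveD

open Cfsg Subgroup Cfsg.Agent.H856.HT.FiveB Cfsg.Agent.H856.HT.FiveC
open Cfsg.Agent.H702.E4 (Loc)

universe u

variable {G : Type u} [Group G] [Finite G] {z : G} {R : Subgroup G} (H : Loc 5 z R)
  (hF : ∀ r ∈ R, IsConj z r → r ∈ zpowers z)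

include H

theorem isConj_of_mem {x : G} (hx : x ∈ zpowers z) (hx1 : x ≠ 1) : IsConj z x := by
  obtain ⟨k, hk⟩ := mem_powers_iff_mem_zpowers.2 hx
  have hk' : z ^ k = x := hk
  rw [← hk']
  refine H.rat k fun h => hx1 ?_
  rw [← hk', ← orderOf_dvd_iff_pow_eq_one, H.oz]
  exact h

theorem z_ne : z ≠ 1 := by
  intro h
  have h5 := H.oz
  rw [h, orderOf_one] at h5
  norm_num at h5

theorem order_R {a : G} (ha : a ∈ R) (ha1 : a ≠ 1) : orderOf a = 5 :=
  orderOf_eq_prime (hp := ⟨by norm_num⟩) (H.ex a ha) ha1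

theorem ne_one {a : G} (haz : a ∉ zpowers z) : a ≠ 1 := by
  rintro rfl
  exact haz (one_mem _)

theorem exists_nc {a : G} (ha : a ∈ R) (haz : a ∉ zpowers z) : ∃ s ∈ R, s * a ≠ a * s := by
  have : Fact (Nat.Prime 5) := ⟨by norm_num⟩
  obtain ⟨s, hs, h⟩ := H.conj_mul ha haz (mem_zpowers z)
  refine ⟨s, hs, fun h2 => ?_⟩
  rw [h2, mul_inv_cancel_right] at h
  exact z_ne H (mul_eq_left.1 h.symm)

theorem card_CR {a : G} (ha : a ∈ R) (haz : a ∉ zpowers z) :
    Nat.card (R ⊓ centralizer ({a} : Set G) : Subgroup G) = 5 ^ 2 := by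
  have : Fact (Nat.Prime 5) := ⟨by norm_num⟩
  have h1 : Nat.card (R ⊓ centralizer ({a} : Set G) : Subgroup G) ∣ 5 ^ 3 := by
    rw [← H.cR]
    exact card_dvd_of_le inf_le_left
  obtain ⟨k, hk, hk2⟩ := (Nat.dvd_prime_pow (by norm_num)).1 h1
  have ha5 : orderOf a = 5 := order_R H ha (ne_one H haz)
  have haC : zpowers a ≤ R ⊓ centralizer ({a} : Set G) := by
    rw [zpowers_le]
    exact ⟨ha, mem_centralizer_singleton_iff.2 rfl⟩
  have hzC : z ∈ R ⊓ centralizer ({a} : Set G) :=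
    ⟨H.zR, mem_centralizer_singleton_iff.2 (mem_centralizer_singleton_iff.1 (H.Rz ha)).symm⟩
  have hk3 : k ≠ 3 := by
    rintro rfl
    have h2 : R ⊓ centralizer ({a} : Set G) = R :=
      Subgroup.eq_of_le_of_card_ge inf_le_left (by rw [hk2, H.cR])
    obtain ⟨s, hs, hne⟩ := exists_nc H ha haz
    rw [← h2] at hs
    exact hne (mem_centralizer_singleton_iff.1 hs.2)
  have hk1 : 2 ≤ k := by
    by_contra hcon
    have h3 : zpowers a = R ⊓ centralizer ({a} : Set G) := by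
      refine Subgroup.eq_of_le_of_card_ge haC ?_
      rw [hk2, Nat.card_zpowers, ha5]
      calc 5 ^ k ≤ 5 ^ 1 := Nat.pow_le_pow_right (by norm_num) (by omega)
        _ = 5 := by norm_num
    rw [← h3] at hzC
    have h4 : zpowers z = zpowers a := by
      refine Subgroup.eq_of_le_of_card_ge (zpowers_le.2 hzC) ?_
      rw [Nat.card_zpowers, Nat.card_zpowers, ha5, H.oz]
    exact haz (h4 ▸ mem_zpowers a)
  have hk4 : k = 2 := by omega
  rw [hk2, hk4]

include hF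

theorem not_dvd_C {a : G} (ha : a ∈ R) (haz : a ∉ zpowers z) :
    ¬ 5 ^ 3 ∣ Nat.card (centralizer ({a} : Set G)) := by
  have : Fact (Nat.Prime 5) := ⟨by norm_num⟩
  intro h3
  have ha5 : orderOf a = 5 := order_R H ha (ne_one H haz)
  have haC : a ∈ centralizer ({a} : Set G) := mem_centralizer_singleton_iff.2 rfl
  have hap : IsPGroup 5 (zpowers (⟨a, haC⟩ : centralizer ({a} : Set G))) := by
    refine IsPGroup.of_card (n := 1) ?_
    rw [Nat.card_zpowers, Subgroup.orderOf_mk, ha5, pow_one]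
  obtain ⟨T, hT⟩ := hap.exists_le_sylow
  have hTc : 5 ^ 3 ∣ Nat.card T := T.pow_dvd_card_of_pow_dvd_card h3
  obtain ⟨Q, hQ⟩ : ∃ Q : Subgroup G, Q = (T : Subgroup (centralizer ({a} : Set G))).map (centralizer ({a} : Set G)).subtype :=
    ⟨_, rfl⟩
  have hQp : IsPGroup 5 Q := by
    rw [hQ]
    exact T.isPGroup'.map _
  have hQc : Nat.card Q = Nat.card T := by
    rw [hQ]
    exact Subgroup.card_map_of_injective (Subgroup.subtype_injective _)
  have haQ : a ∈ Q := by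
    rw [hQ]
    exact ⟨⟨a, haC⟩, hT (mem_zpowers _), rfl⟩
  have hQa : ∀ q ∈ Q, q * a = a * q := by
    intro q hq
    rw [hQ] at hq
    obtain ⟨t, -, rfl⟩ := hq
    exact mem_centralizer_singleton_iff.1 t.2
  obtain ⟨g, hg⟩ := conj_into (p := 5) (n := 3) R H.cR H.h4 Q hQp
  have hinj : Function.Injective (fun q : Q => (⟨g * q * g⁻¹, hg q q.2⟩ : R)) := by
    intro x y hxy
    have h4 : g * (x : G) * g⁻¹ = g * y * g⁻¹ := congrArg Subtype.val hxy
    exact Subtype.ext (by simpa using h4)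
  have hle : Nat.card R ≤ Nat.card Q := by
    rw [H.cR, hQc]
    exact Nat.le_of_dvd Nat.card_pos hTc
  have hsurj : Function.Surjective (fun q : Q => (⟨g * q * g⁻¹, hg q q.2⟩ : R)) :=
    (Function.Injective.bijective_of_nat_card_le hinj hle).2
  have hcen : ∀ r ∈ R, r * (g * a * g⁻¹) = (g * a * g⁻¹) * r := by
    intro r hr
    obtain ⟨q, hq⟩ := hsurj ⟨r, hr⟩
    have h5 : g * (q : G) * g⁻¹ = r := congrArg Subtype.val hq
    have h6 := hQa q q.2
    rw [← h5]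
    calc g * (q : G) * g⁻¹ * (g * a * g⁻¹) = g * ((q : G) * a) * g⁻¹ := by group
      _ = g * (a * q) * g⁻¹ := by rw [h6]
      _ = _ := by group
  have hmem : g * a * g⁻¹ ∈ zpowers z := by
    by_contra hcon
    obtain ⟨s, hs, hne⟩ := exists_nc H (hg a haQ) hcon
    exact hne (hcen s hs)
  have hne1 : g * a * g⁻¹ ≠ 1 := by
    rw [Ne, conj_eq_one]
    exact ne_one H haz
  exact haz (hF a ha (isConj_conj_iff.1 (isConj_of_mem H hmem hne1)))

/-- **a noncentral element of `R`** -/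
theorem dvd_twentyfive {a : G} (ha : a ∈ R) (haz : a ∉ zpowers z) :
    (25 : ℤ) ∣ (cnt (T3 z) a : ℤ) - 3 * (cnt (T1 z) a : ℤ) * (cnt (T2 z) a : ℤ) + 3 * (cnt (T1 z) a : ℤ) ^ 2 := by
  have : Fact (Nat.Prime 5) := ⟨by norm_num⟩
  obtain ⟨C, hC⟩ : ∃ C : Subgroup G, C = centralizer ({a} : Set G) := ⟨_, rfl⟩
  have hmemC : ∀ x : G, x ∈ C ↔ x * a = a * x := fun x => by rw [hC]; exact mem_centralizer_singleton_iff
  have haz' : a * z = z * a := mem_centralizer_singleton_iff.1 (H.Rz ha)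
  have haC : a ∈ C := (hmemC a).2 rfl
  have hzC : z ∈ C := (hmemC z).2 haz'.symm
  have h25 : 5 ^ 2 ∣ Nat.card C := by
    rw [← card_CR H ha haz, hC]
    exact card_dvd_of_le inf_le_right
  obtain ⟨m, hm⟩ := h25
  have hm5 : ¬ 5 ∣ m := by
    rintro ⟨k, rfl⟩
    refine not_dvd_C H hF ha haz ⟨k, ?_⟩
    rw [← hC, hm]
    ring
  obtain ⟨L, ⟨l, hL, hl⟩, hXL, hLX⟩ := Cfsg.Agent.H597.HT.TransL.exists_L (C := C) (p := 5) (m := m) hm hm5
    (a := ⟨a, haC⟩) (z := ⟨z, hzC⟩) (by rw [Subgroup.orderOf_mk]; exact order_R H ha (ne_one H haz))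
    (by rw [Subgroup.orderOf_mk]; exact H.oz)
    (fun g => Subtype.ext ((hmemC g).1 g.2).symm)
    (fun h => haz (by
      obtain ⟨k, hk⟩ := mem_zpowers_iff.1 h
      exact mem_zpowers_iff.2 ⟨k, congrArg Subtype.val hk⟩))
    ((R ⊓ C).subgroupOf C) (by
      rw [← card_CR H ha haz, ← hC]
      exact Nat.card_congr (Subgroup.subgroupOfEquivOfLe inf_le_right).toEquiv)
    (Subgroup.mem_subgroupOf.2 ⟨ha, haC⟩) (Subgroup.mem_subgroupOf.2 ⟨H.zR, hzC⟩)
    {x : C | IsConj z (x : G)} (fun x hx g => isConj_conj hx)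
    (fun x hx => by
      obtain ⟨g, hg⟩ := isConj_iff.1 hx
      rw [← Subgroup.orderOf_coe, ← hg, ← H.oz]
      exact orderOf_injective (MulAut.conj g).toMonoidHom (MulAut.conj g).injective z)
    (fun x hx hxS => by
      obtain ⟨k, hk⟩ := mem_zpowers_iff.1 (hF _ (Subgroup.mem_subgroupOf.1 hxS).1 hx)
      exact mem_zpowers_iff.2 ⟨k, Subtype.ext hk⟩)
    (fun k hk => H.rat k hk)
  -- membership
  have hiff : ∀ x : L, orderOf x = 5 ↔ IsConj z ((x : C) : G) := by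
    intro x
    constructor
    · intro hx
      exact hLX x.1 x.2 (by rw [Subgroup.orderOf_coe]; exact hx)
    · intro hx
      obtain ⟨g, hg⟩ := isConj_iff.1 hx
      rw [← Subgroup.orderOf_coe, ← Subgroup.orderOf_coe, ← hg, ← H.oz]
      exact orderOf_injective (MulAut.conj g).toMonoidHom (MulAut.conj g).injective z
  have hlift : ∀ x : G, IsConj z x → x * a = a * x → ∃ y : L, ((y : C) : G) = x := fun x hx hxa =>
    ⟨⟨⟨x, (hmemC x).2 hxa⟩, hXL _ hx⟩, rfl⟩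
  have hcoe : ∀ x y : L, ((x : C) : G) = ((y : C) : G) → x = y := fun x y h => Subtype.ext (Subtype.ext h)
  obtain ⟨zL, hzL⟩ := hlift z (IsConj.refl z) haz'.symm
  have hzo : orderOf zL = 5 := (hiff zL).2 (by rw [hzL])
  have hco : ∀ x : L, ((x : C) : G) * a = a * ((x : C) : G) := fun x => (hmemC _).1 x.1.2
  have e1 : Nat.card {x : L // orderOf x = 5} = cnt (T1 z) a := by
    unfold cnt
    refine Nat.card_congr (Equiv.ofBijective (fun x => ⟨(((x.1 : C) : G), 1, 1), ⟨(hiff x.1).1 x.2, rfl, rfl⟩,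
      hco x.1, by simp, by simp⟩) ⟨?_, ?_⟩)
    · intro x y hxy
      exact Subtype.ext (hcoe _ _ (congrArg (fun q => q.1.1) hxy))
    · rintro ⟨⟨x, y, w⟩, ⟨hx, hy, hw⟩, hc, -, -⟩
      obtain ⟨x', hx'⟩ := hlift x hx hc
      refine ⟨⟨x', (hiff x').2 (by rw [hx']; exact hx)⟩, Subtype.ext ?_⟩
      exact Prod.ext hx' (Prod.ext hy.symm hw.symm)
  have e2 : Nat.card {q : L × L // orderOf q.1 = 5 ∧ orderOf q.2 = 5 ∧ q.1 * q.2 = zL} = cnt (T2 z) a := by
    unfold cnt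
    refine Nat.card_congr (Equiv.ofBijective (fun q => ⟨(((q.1.1 : C) : G), ((q.1.2 : C) : G), 1),
      ⟨(hiff _).1 q.2.1, (hiff _).1 q.2.2.1, rfl, ?_⟩, hco _, hco _, by simp⟩) ⟨?_, ?_⟩)
    · have h := q.2.2.2
      show ((q.1.1 : C) : G) * ((q.1.2 : C) : G) = z
      rw [← hzL]
      exact congrArg (fun x : L => ((x : C) : G)) h
    · intro x y hxy
      exact Subtype.ext (Prod.ext (hcoe _ _ (congrArg (fun q => q.1.1) hxy)) (hcoe _ _ (congrArg (fun q => q.1.2.1) hxy)))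
    · rintro ⟨⟨x, y, w⟩, ⟨hx, hy, hw, hm'⟩, hc, hc2, -⟩
      obtain ⟨x', hx'⟩ := hlift x hx hc
      obtain ⟨y', hy'⟩ := hlift y hy hc2
      refine ⟨⟨(x', y'), (hiff x').2 (by rw [hx']; exact hx), (hiff y').2 (by rw [hy']; exact hy), ?_⟩, Subtype.ext ?_⟩
      · apply hcoe
        rw [hzL]
        show ((x' : C) : G) * ((y' : C) : G) = z
        rw [hx', hy']
        exact hm'
      · exact Prod.ext hx' (Prod.ext hy' hw.symm)
  have e3 : Nat.card {q : L × L × L // orderOf q.1 = 5 ∧ orderOf q.2.1 = 5 ∧ orderOf q.2.2 = 5 ∧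
      q.1 * q.2.1 * q.2.2 = zL} = cnt (T3 z) a := by
    unfold cnt
    refine Nat.card_congr (Equiv.ofBijective (fun q => ⟨(((q.1.1 : C) : G), ((q.1.2.1 : C) : G), ((q.1.2.2 : C) : G)),
      ⟨(hiff _).1 q.2.1, (hiff _).1 q.2.2.1, (hiff _).1 q.2.2.2.1, ?_⟩, hco _, hco _, hco _⟩) ⟨?_, ?_⟩)
    · have h := q.2.2.2.2
      show ((q.1.1 : C) : G) * ((q.1.2.1 : C) : G) * ((q.1.2.2 : C) : G) = z
      rw [← hzL]
      exact congrArg (fun x : L => ((x : C) : G)) h
    · intro x y hxy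
      exact Subtype.ext (Prod.ext (hcoe _ _ (congrArg (fun q => q.1.1) hxy))
        (Prod.ext (hcoe _ _ (congrArg (fun q => q.1.2.1) hxy)) (hcoe _ _ (congrArg (fun q => q.1.2.2) hxy))))
    · rintro ⟨⟨x, y, w⟩, ⟨hx, hy, hw, hm'⟩, hc, hc2, hc3⟩
      obtain ⟨x', hx'⟩ := hlift x hx hc
      obtain ⟨y', hy'⟩ := hlift y hy hc2
      obtain ⟨w', hw'⟩ := hlift w hw hc3
      refine ⟨⟨(x', y', w'), (hiff x').2 (by rw [hx']; exact hx), (hiff y').2 (by rw [hy']; exact hy),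
        (hiff w').2 (by rw [hw']; exact hw), ?_⟩, Subtype.ext ?_⟩
      · apply hcoe
        rw [hzL]
        show ((x' : C) : G) * ((y' : C) : G) * ((w' : C) : G) = z
        rw [hx', hy', hw']
        exact hm'
      · exact Prod.ext hx' (Prod.ext hy' hw')
  have hmain := Cfsg.Agent.H856.HT.FiveA.main (L := L) (p := 5) (l := l) (by norm_num) hL hl hzo e1 e2 e3
  norm_num at hmain
  exact hmain

end Cfsg.Agent.H856.HT.FiveD
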