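import Cfsg.Agent.H856.HT.FiveD

/-!
# S4933, `|P| = 5 ^ 3` (helper856)

**`exists_mem`** : `R` a nonabelian Sylow 5-subgroup of order 125 and exponent 5 of `G`, `z` rational of order 5 in the
centre of `R`, the noncentral elements of `R` are not conjugate to `z`, `C(z)` has one 5-block: the principal 5-block of
`G` contains a character of degree divisible by 5.
-/

set_option autoImplicit false
set_option linter.unusedSectionVars false

namespace Cfsg.Agent.H856.HT.FiveE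

open Cfsg Subgroup Cfsg.Agent.H856.HT.FiveB Cfsg.Agent.H856.HT.FiveC Cfsg.Agent.H856.HT.FiveD
open Cfsg.Agent.H702.E4 (Loc)

universe u

variable {G : Type u} [Group G] [Finite G] {z : G} {R : Subgroup G} (H : Loc 5 z R)
  (hF : ∀ r ∈ R, IsConj z r → r ∈ zpowers z)

theorem com_of_mem {b z' : G} (hb : b ∈ zpowers z') {q : G × G × G} (h : com q z') : com q b := by
  obtain ⟨k, rfl⟩ := mem_zpowers_iff.1 hb
  exact ⟨((show Commute q.1 z' from h.1).zpow_right k).eq, ((show Commute q.2.1 z' from h.2.1).zpow_right k).eq,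
    ((show Commute q.2.2 z' from h.2.2).zpow_right k).eq⟩

include H

theorem zpowers_eq {b : G} (hb : b ∈ zpowers z) (hb1 : b ≠ 1) : zpowers z = zpowers b := by
  have : Fact (Nat.Prime 5) := ⟨by norm_num⟩
  refine (Subgroup.eq_of_le_of_card_ge (zpowers_le.2 hb) ?_).symm
  rw [Nat.card_zpowers, Nat.card_zpowers, H.oz, order_R H ((zpowers_le.2 H.zR) hb) hb1]

theorem cnt_mem (T : Set (G × G × G)) {b : G} (hb : b ∈ zpowers z) (hb1 : b ≠ 1) : cnt T b = cnt T z := by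
  unfold cnt
  refine Nat.card_congr (Equiv.subtypeEquivRight fun q => and_congr_right fun _ => ⟨fun h => ?_, fun h => ?_⟩)
  · exact com_of_mem (zpowers_eq H hb hb1 ▸ mem_zpowers z) h
  · exact com_of_mem hb h

/-- modulo 5 -/
theorem cnt_mod (T : Set (G × G × G)) (hT : ∀ g : G, g * z = z * g → ∀ q, cnj g q ∈ T ↔ q ∈ T)
    (hTz : ∀ q ∈ T, com q z → ∀ b : G, b * z = z * b → com q b) {a : G} (ha : a * z = z * a) :
    5 ∣ cnt T a + 4 * cnt T z := by
  classical
  have _ := Fintype.ofFinite (zpowers z)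
  have hzz : ∀ b ∈ zpowers z, b * z = z * b := by
    intro b hb
    obtain ⟨k, rfl⟩ := mem_zpowers_iff.1 hb
    exact ((Commute.refl z).zpow_left k).eq
  have haz : ∀ b ∈ zpowers z, b * a = a * b := by
    intro b hb
    obtain ⟨k, rfl⟩ := mem_zpowers_iff.1 hb
    exact ((show Commute z a from ha.symm).zpow_left k).eq
  have h := burn (zpowers z) {q | q ∈ T ∧ com q a} (by
    rintro u hu q ⟨hq, hqa⟩
    refine ⟨(hT u (hzz u hu) q).2 hq, ?_⟩
    have h1 := (cnj_eq_iff _ _).2 hqa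
    rw [← cnj_eq_iff, ← cnj_mul, ← haz u hu, cnj_mul, h1])
  rw [Nat.card_zpowers, H.oz] at h
  have h0 : cnt {q : G × G × G | q ∈ T ∧ com q a} ((1 : zpowers z) : G) = cnt T a := by
    unfold cnt
    refine Nat.card_congr (Equiv.subtypeEquivRight fun q => ⟨fun h => ⟨h.1.1, h.1.2⟩, fun h => ⟨⟨h.1, h.2⟩, ?_⟩⟩)
    exact ⟨by simp, by simp, by simp⟩
  have h1 : ∀ b ∈ (Finset.univ : Finset (zpowers z)).erase 1, cnt {q : G × G × G | q ∈ T ∧ com q a} (b : G) = cnt T z := by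
    intro b hb
    have hb1 : (b : G) ≠ 1 := fun h => (Finset.ne_of_mem_erase hb) (Subtype.ext h)
    rw [cnt_mem H _ b.2 hb1]
    unfold cnt
    refine Nat.card_congr (Equiv.subtypeEquivRight fun q => ⟨fun h => ⟨h.1.1, h.2⟩, fun h => ⟨⟨h.1, ?_⟩, h.2⟩⟩)
    exact hTz q h.1 h.2 a ha
  rw [← Finset.add_sum_erase _ _ (Finset.mem_univ (1 : zpowers z)), h0, Finset.sum_congr rfl h1, Finset.sum_const,
    Finset.card_erase_of_mem (Finset.mem_univ _), Finset.card_univ, ← Nat.card_eq_fintype_card, Nat.card_zpowers,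
    H.oz, smul_eq_mul] at h
  exact h

include hF

theorem com_z {x : G} (hx : IsConj z x) (hxz : x * z = z * x) {b : G} (hb : b * z = z * b) : x * b = b * x := by
  have : Fact (Nat.Prime 5) := ⟨by norm_num⟩
  obtain ⟨k, rfl⟩ := mem_zpowers_iff.1 (mem_of_comm H hF hx hxz)
  exact ((show Commute b z from hb).zpow_right k).symm.eq

theorem hT1 (q : G × G × G) (hq : q ∈ T1 z) (hc : com q z) (b : G) (hb : b * z = z * b) : com q b := by
  obtain ⟨h1, h2, h3⟩ := hq
  exact ⟨com_z H hF h1 hc.1 hb, by rw [h2]; simp, by rw [h3]; simp⟩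

theorem hT2 (q : G × G × G) (hq : q ∈ T2 z) (hc : com q z) (b : G) (hb : b * z = z * b) : com q b := by
  obtain ⟨h1, h2, h3, -⟩ := hq
  exact ⟨com_z H hF h1 hc.1 hb, com_z H hF h2 hc.2.1 hb, by rw [h3]; simp⟩

theorem dvd_T1 {a : G} (ha : a * z = z * a) : 5 ∣ cnt (T1 z) a + 1 := by
  have h := cnt_mod H (T1 z) (fun g _ q => cnj_T1 z g q) (hT1 H hF) ha
  rw [cnt_T1 H hF] at h
  omega

theorem dvd_T2 {a : G} (ha : a * z = z * a) : 5 ∣ cnt (T2 z) a + 2 := by
  have h := cnt_mod H (T2 z) (fun g hg q => cnj_T2 hg q) (hT2 H hF) ha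
  rw [cnt_T2 H hF] at h
  omega

/-- the summand -/
noncomputable def tau (z b : G) : ℤ :=
  (cnt (T3 z) b : ℤ) - 3 * (cnt (T1 z) 1 : ℤ) * (cnt (T2 z) b : ℤ) + 3 * (cnt (T1 z) 1 : ℤ) ^ 2

theorem dvd_tau {a : G} (ha : a ∈ R) (haz : a ∉ zpowers z) : (25 : ℤ) ∣ tau z a := by
  have hc : a * z = z * a := mem_centralizer_singleton_iff.1 (H.Rz ha)
  obtain ⟨k, hk⟩ := dvd_twentyfive H hF ha haz
  obtain ⟨e, he⟩ := dvd_T1 H hF hc
  obtain ⟨d, hd⟩ := dvd_T1 H hF (a := 1) (by simp)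
  obtain ⟨f, hf⟩ := dvd_T2 H hF hc
  unfold tau
  have he' : (cnt (T1 z) a : ℤ) = 5 * e - 1 := by omega
  have hd' : (cnt (T1 z) 1 : ℤ) = 5 * d - 1 := by omega
  have hf' : (cnt (T2 z) a : ℤ) = 5 * f - 2 := by omega
  rw [he', hf'] at hk
  rw [hd', hf']
  refine ⟨k + 3 * (e : ℤ) * f - 3 * d * f + 3 * d ^ 2 - 3 * e ^ 2, ?_⟩
  linear_combination hk

theorem tau_z (b : G) (hb : b ∈ zpowers z) (hb1 : b ≠ 1) :
    tau z b = 13 - 9 * (cnt (T1 z) 1 : ℤ) + 3 * (cnt (T1 z) 1 : ℤ) ^ 2 := by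
  unfold tau
  rw [cnt_mem H _ hb hb1, cnt_mem H _ hb hb1, cnt_T2 H hF, cnt_T3 H hF]
  push_cast
  ring

omit hF in
theorem tau_conj {s b : G} (hs : s ∈ R) : tau z (s * b * s⁻¹) = tau z b := by
  have hsz : s * z = z * s := mem_centralizer_singleton_iff.1 (H.Rz hs)
  unfold tau
  rw [cnt_conj (T3 z) s b fun q => cnj_T3 hsz q, cnt_conj (T2 z) s b fun q => cnj_T2 hsz q]

omit hF in
theorem sum_tau [Fintype R] : (125 : ℤ) ∣ ∑ b : R, tau z (b : G) := by
  have h2 := burn R (T2 z) fun u hu q hq => (cnj_T2 (mem_centralizer_singleton_iff.1 (H.Rz hu)) q).2 hq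
  have h3 := burn R (T3 z) fun u hu q hq => (cnj_T3 (mem_centralizer_singleton_iff.1 (H.Rz hu)) q).2 hq
  rw [H.cR] at h2 h3
  obtain ⟨k2, hk2⟩ := h2
  obtain ⟨k3, hk3⟩ := h3
  unfold tau
  rw [Finset.sum_add_distrib, Finset.sum_sub_distrib, ← Finset.mul_sum, Finset.sum_const, Finset.card_univ,
    ← Nat.card_eq_fintype_card, H.cR, ← Nat.cast_sum, ← Nat.cast_sum, hk2, hk3]
  refine ⟨(k3 : ℤ) - 3 * (cnt (T1 z) 1 : ℤ) * k2 + 3 * (cnt (T1 z) 1 : ℤ) ^ 2, ?_⟩
  push_cast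
  ring

theorem sum_nc [Fintype R] [DecidablePred fun b : R => (b : G) ∈ zpowers z] :
    (125 : ℤ) ∣ ∑ b : R, if (b : G) ∈ zpowers z then 0 else tau z (b : G) := by
  have : Fact (Nat.Prime 5) := ⟨by norm_num⟩
  have h := dvd_sum_of_coset ((zpowers z).subgroupOf R)
    (fun b : R => if (b : G) ∈ zpowers z then 0 else tau z (b : G)) 25 (by
      intro b s hs
      have hs' : (s : G) ∈ zpowers z := Subgroup.mem_subgroupOf.1 hs
      have hiff : ((b * s : R) : G) ∈ zpowers z ↔ (b : G) ∈ zpowers z := by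
        rw [Subgroup.coe_mul]
        exact Subgroup.mul_mem_cancel_right _ hs'
      simp only [hiff]
      split_ifs with hb
      · rfl
      · obtain ⟨t, ht, h2⟩ := H.conj_mul b.2 hb hs'
        rw [Subgroup.coe_mul, ← h2, tau_conj H ht]) (by
      intro b
      split_ifs with hb
      · exact dvd_zero _
      · exact dvd_tau H hF b.2 hb)
  have h5 : Nat.card ((zpowers z).subgroupOf R) = 5 := by
    rw [Nat.card_congr (Subgroup.subgroupOfEquivOfLe (zpowers_le.2 H.zR)).toEquiv, Nat.card_zpowers, H.oz]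
  rw [h5] at h
  norm_num at h
  exact h

theorem tau_one : ¬ (125 : ℤ) ∣ tau z 1 := by
  classical
  have _ := Fintype.ofFinite R
  intro h1
  have hs := sum_tau H
  have hn := sum_nc H hF
  have hsplit : ∑ b : R, tau z (b : G) = (∑ b : R, if (b : G) ∈ zpowers z then 0 else tau z (b : G)) +
      ∑ b : R, if (b : G) ∈ zpowers z then tau z (b : G) else 0 := by
    rw [← Finset.sum_add_distrib]
    refine Finset.sum_congr rfl fun b _ => ?_
    split_ifs <;> simp
  rw [hsplit] at hs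
  have hz := (Int.dvd_add_right hn).1 hs
  rw [← Finset.sum_filter] at hz
  have hmem1 : (1 : R) ∈ Finset.univ.filter fun b : R => (b : G) ∈ zpowers z := by
    simp
  have hcard : (Finset.univ.filter fun b : R => (b : G) ∈ zpowers z).card = 5 := by
    rw [← Fintype.card_subtype, ← Nat.card_eq_fintype_card]
    have h5 : Nat.card ((zpowers z).subgroupOf R) = 5 := by
      rw [Nat.card_congr (Subgroup.subgroupOfEquivOfLe (zpowers_le.2 H.zR)).toEquiv, Nat.card_zpowers, H.oz]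
    exact h5
  rw [← Finset.add_sum_erase _ _ hmem1, Finset.sum_congr rfl (g := fun _ =>
    13 - 9 * (cnt (T1 z) 1 : ℤ) + 3 * (cnt (T1 z) 1 : ℤ) ^ 2), Finset.sum_const, Finset.card_erase_of_mem hmem1,
    hcard] at hz
  · obtain ⟨d, hd⟩ := dvd_T1 H hF (a := 1) (by simp)
    have hd' : (cnt (T1 z) 1 : ℤ) = 5 * d - 1 := by omega
    have hz' := (Int.dvd_add_right h1).1 hz
    rw [hd'] at hz'
    obtain ⟨k, hk⟩ := hz'
    rw [nsmul_eq_mul] at hk
    push_cast at hk
    have h5 : 4 * (3 * (d : ℤ) ^ 2 - 3 * d + 1) = 5 * k := by linarith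
    have h6 : (4 * (3 * (d : ℤ) ^ 2 - 3 * d + 1)) % 5 = 0 := by omega
    have h7 : (d : ℤ) % 5 = 0 ∨ (d : ℤ) % 5 = 1 ∨ (d : ℤ) % 5 = 2 ∨ (d : ℤ) % 5 = 3 ∨ (d : ℤ) % 5 = 4 := by omega
    rcases h7 with h | h | h | h | h <;>
      simp [pow_two, Int.mul_emod, Int.add_emod, Int.sub_emod, h] at h6
  · intro b hb
    obtain ⟨hb1, hb2⟩ := Finset.mem_erase.1 hb
    exact tau_z H hF (b : G) (Finset.mem_filter.1 hb2).2 fun h => hb1 (Subtype.ext h)

omit H hF [Finite G] in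
theorem com_one (q : G × G × G) : com q 1 := ⟨by simp, by simp, by simp⟩

omit H hF in
theorem index_eq (z : G) : (centralizer ({z} : Set G)).index = cnt (T1 z) 1 := by
  classical
  have _ := Fintype.ofFinite G
  rw [← Cfsg.Agent.Characters.ClassMul.card_filter_isConj z, ← Fintype.card_subtype, ← Nat.card_eq_fintype_card]
  unfold cnt
  exact Nat.card_congr
    { toFun := fun x => ⟨(x.1, 1, 1), ⟨x.2, rfl, rfl⟩, com_one _⟩
      invFun := fun q => ⟨q.1.1, q.2.1.1⟩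
      left_inv := fun x => rfl
      right_inv := fun q => Subtype.ext (Prod.ext rfl (Prod.ext q.2.1.2.1.symm q.2.1.2.2.symm)) }

/-- **S4933, `|P| = 5 ^ 3`** -/
theorem exists_mem {M : Ideal AlgInt} (hM : IsPModular 5 M)
    (hC : H104.EB.COne.OneBlock M (centralizer ({z} : Set G))) :
    ∃ χ : IrrCharacter G, χ ∈ principalBlock M G ∧ 5 ∣ charDegree (χ : G → ℂ) := by
  have : Fact (Nat.Prime 5) := ⟨by norm_num⟩
  refine Cfsg.Agent.H702.E4.test hM H hC (D := cnt (T1 z) 1) (N2 := cnt (T2 z) 1) (N3 := cnt (T3 z) 1)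
    (index_eq z) ?_ ?_ ?_
  · unfold cnt
    exact Nat.card_congr
      { toFun := fun x => ⟨(x.1.1, x.1.2, 1), ⟨x.2.1, x.2.2.1, rfl, x.2.2.2⟩, com_one _⟩
        invFun := fun q => ⟨(q.1.1, q.1.2.1), q.2.1.1, q.2.1.2.1, q.2.1.2.2.2⟩
        left_inv := fun x => rfl
        right_inv := fun q => Subtype.ext (Prod.ext rfl (Prod.ext rfl q.2.1.2.2.1.symm)) }
  · unfold cnt
    exact Nat.card_congr
      { toFun := fun x => ⟨x.1, x.2, com_one _⟩
        invFun := fun q => ⟨q.1, q.2.1⟩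
        left_inv := fun x => rfl
        right_inv := fun q => rfl }
  · intro h
    apply tau_one H hF
    unfold tau
    norm_num at h
    obtain ⟨k, hk⟩ := h
    exact ⟨k, by linear_combination hk⟩

end Cfsg.Agent.H856.HT.FiveE
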